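import Mathlib
import Cfsg.Agent.Lib.Small.Sweep

/-! A faster reflection check. -/

set_option autoImplicit false
set_option linter.unusedSectionVars false
set_option linter.unusedVariables false

namespace Cfsg.Agent.Lib.R6232

open Cfsg.Agent.Lib.Small

/-- primality test for small numbers -/
def isP80 (p : ℕ) : Bool :=
  decide (2 ≤ p) && decide (p < 6400) && (List.range 80).all (fun d => decide (d < 2) || d == p || p % d != 0)

theorem prime_of_isP80 {p : ℕ} (h : isP80 p = true) : p.Prime := by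
  unfold isP80 at h
  simp only [Bool.and_eq_true, decide_eq_true_iff, List.all_eq_true, Bool.or_eq_true, beq_iff_eq, bne_iff_ne] at h
  obtain ⟨⟨h1, h2⟩, h3⟩ := h
  rw [Nat.prime_def_le_sqrt]
  refine ⟨h1, ?_⟩
  intro m hm hms hd
  have h4 : Nat.sqrt p < 80 := Nat.sqrt_lt'.mpr (by norm_num; omega)
  have h5 := h3 m (List.mem_range.mpr (by omega))
  rcases h5 with (h5 | h5) | h5
  · omega
  · subst h5
    have := Nat.sqrt_lt_self (n := m) (by omega)
    omega
  · exact h5 (Nat.mod_eq_zero_of_dvd hd)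

/-- no options for the Sylow number, only testing the residue class one -/
def killF (g p : ℕ) : Bool :=
  let a := (pPart g p g).1
  let m := (pPart g p g).2
  isP80 p && decide (0 < a) && (g == p ^ a * m) && (m % p != 0) && decide (0 < m) &&
    (List.range (m / p + 1)).all (fun k => !(sylowOption g p a m (1 + k * p)))

variable {G : Type*} [Group G] [Finite G]

theorem false_of_killF [IsSimpleGroup G] (hnc : ¬ IsMulCommutative G) {p : ℕ}
    (h : killF (Nat.card G) p = true) : False := by
  unfold killF at h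
  simp only [Bool.and_eq_true, decide_eq_true_iff, beq_iff_eq, bne_iff_ne, List.all_eq_true] at h
  obtain ⟨⟨⟨⟨⟨hp, ha⟩, hg⟩, hm⟩, hm0⟩, hall⟩ := h
  set a := (pPart (Nat.card G) p (Nat.card G)).1
  set m := (pPart (Nat.card G) p (Nat.card G)).2
  haveI : Fact p.Prime := ⟨prime_of_isP80 hp⟩
  have hpos : 0 < p := (prime_of_isP80 hp).pos
  have hm' : ¬ p ∣ m := fun hd => hm (Nat.mod_eq_zero_of_dvd hd)
  have hnp := not_isPGroup_of_noncomm hnc p
  obtain ⟨h1, h2, h3, h4⟩ := Cfsg.Agent.Lib.SmallSimple.sylow_package hg ha hm' hnp hnc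
  set n := Nat.card (Sylow p G) with hn
  have hle : n ≤ m := Nat.le_of_dvd hm0 h2
  have hnk : 1 + n / p * p = n := by
    have := Nat.div_add_mod n p
    rw [h1] at this
    rw [mul_comm]
    omega
  have hk : n / p ≤ m / p := Nat.div_le_div_right hle
  have hnot := hall (n / p) (List.mem_range.mpr (by omega))
  rw [hnk, Bool.not_eq_true'] at hnot
  unfold sylowOption at hnot
  simp only [Bool.and_eq_false_iff, beq_eq_false_iff_ne, decide_eq_false_iff_not, Bool.or_eq_false_iff,
    bne_eq_false_iff_eq, ne_eq] at hnot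
  rcases hnot with ⟨⟨⟨h5 | h5⟩ | h5⟩ | h5⟩ | h5
  · exact h5 h1
  · exact h5 (Nat.mod_eq_zero_of_dvd h2)
  · exact h5 h3
  · rcases h5 with ⟨_, h6⟩
    exact h6 (Nat.mod_eq_zero_of_dvd h4)
  · obtain ⟨h6, h7⟩ := h5
    have hcard' : Nat.card G = p ^ 1 * m := by rw [← h6]; exact hg
    exact Cfsg.Agent.Lib.SmallSimple.false_of_prime_sylow hcard' hm' hnp (m / n)
      (Nat.mul_div_cancel' h2) h7

end Cfsg.Agent.Lib.R6232
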