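import Mathlib

/-! Filters on the local data at a prime exactly dividing the group order. -/

set_option autoImplicit false
set_option linter.unusedSectionVars false
set_option linter.unusedVariables false

namespace Cfsg.Agent.Lib.R6232

open Subgroup

universe u

variable {G : Type u} [Group G]

/-- Lemma A: an element of prime order commuting with a Sylow subgroup of prime order cannot have
too few Sylow subgroups. -/
theorem core_fix [Finite G] {p q : ℕ} [hp : Fact p.Prime] [hq : Fact q.Prime] (hpq : p ≠ q) (P R : Sylow p G)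
    (hP : Nat.card (P : Subgroup G) = p) (hPR : P ≠ R) {x y : G} (hx : x ∈ (P : Subgroup G)) (hox : orderOf x = p)
    (hoy : orderOf y = q) (hxy : Commute x y) (hyR : y • R ≠ R) {a b : ℕ}
    (h : (x ^ a * y ^ b) • R = R) : p ∣ a ∧ q ∣ b := by
  classical
  have hcop : Nat.Coprime p q := (Nat.coprime_primes hp.out hq.out).mpr hpq
  -- the `q`-th power lies in `R`
  have h1 : (x ^ (a * q)) • R = R := by
    have h2 : ∀ k : ℕ, ((x ^ a * y ^ b) ^ k) • R = R := by
      intro k
      induction k with
      | zero => simp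
      | succ k ih => rw [pow_succ, mul_smul, h, ih]
    have h3 := h2 q
    have hc : Commute (x ^ a) (y ^ b) := hxy.pow_pow a b
    have hyq : y ^ q = 1 := by rw [← hoy, pow_orderOf_eq_one]
    rw [hc.mul_pow, ← pow_mul x a q, ← pow_mul y b q, mul_comm b q, pow_mul y q b, hyq, one_pow, mul_one] at h3
    exact h3
  have hmem : x ^ (a * q) ∈ (P : Subgroup G) := pow_mem hx _
  have hmemN : x ^ (a * q) ∈ normalizer ((R : Subgroup G) : Set G) := Sylow.smul_eq_iff_mem_normalizer.mp h1
  have hinf := IsPGroup.inf_normalizer_sylow (P.isPGroup') R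
  have hR : x ^ (a * q) ∈ (R : Subgroup G) := by
    have h2 : x ^ (a * q) ∈ (P : Subgroup G) ⊓ normalizer ((R : Subgroup G) : Set G) := ⟨hmem, hmemN⟩
    have h3 : (P : Subgroup G) ⊓ normalizer ((R : Subgroup G) : Set G) = (P : Subgroup G) ⊓ (R : Subgroup G) := hinf
    rw [h3] at h2
    exact h2.2
  have htriv : x ^ (a * q) = 1 := by
    by_contra hne
    apply hPR
    -- `P` is generated by any nontrivial element
    have hle : (P : Subgroup G) ≤ R := by
      haveI : Fact (Nat.card (P : Subgroup G)).Prime := ⟨by rw [hP]; exact hp.out⟩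
      have hinf2 : (P : Subgroup G) ⊓ R ≠ ⊥ := by
        intro hb
        have : x ^ (a * q) ∈ (P : Subgroup G) ⊓ R := ⟨hmem, hR⟩
        rw [hb] at this
        exact hne (Subgroup.mem_bot.mp this)
      have h4 : ((R : Subgroup G).subgroupOf (P : Subgroup G)) ≠ ⊥ := by
        intro hb
        apply hne
        have h5 : (⟨x ^ (a * q), hmem⟩ : (P : Subgroup G)) ∈ (R : Subgroup G).subgroupOf (P : Subgroup G) := hR
        rw [hb] at h5
        have := Subgroup.mem_bot.mp h5
        exact congrArg Subtype.val this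
      have h6 := Subgroup.eq_bot_or_eq_top_of_prime_card ((R : Subgroup G).subgroupOf (P : Subgroup G))
      rcases h6 with h6 | h6
      · exact absurd h6 h4
      · exact Subgroup.subgroupOf_eq_top.mp h6
    apply Sylow.ext
    apply Subgroup.eq_of_le_of_card_ge hle
    rw [Sylow.card_eq_multiplicity R, ← Sylow.card_eq_multiplicity P]
  have hpa : p ∣ a := by
    have h2 : p ∣ a * q := by
      rw [← hox]
      exact orderOf_dvd_of_pow_eq_one htriv
    exact (hcop.dvd_of_dvd_mul_right h2)
  refine ⟨hpa, ?_⟩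
  have hxa : x ^ a = 1 := by
    obtain ⟨k, rfl⟩ := hpa
    rw [pow_mul, ← hox, pow_orderOf_eq_one, one_pow]
  rw [hxa, one_mul] at h
  by_contra hnd
  apply hyR
  have hcop2 : Nat.Coprime b q := ((Nat.Prime.coprime_iff_not_dvd hq.out).mpr hnd).symm
  obtain ⟨t, -, ht⟩ := Nat.exists_mul_mod_eq_one_of_coprime hcop2 hq.out.one_lt
  have h2 : ∀ k : ℕ, ((y ^ b) ^ k) • R = R := by
    intro k
    induction k with
    | zero => simp
    | succ k ih => rw [pow_succ, mul_smul, h, ih]
  have h3 := h2 t
  rw [← pow_mul] at h3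
  have h4 : y ^ (b * t) = y := by
    rw [← pow_mod_orderOf, hoy, ht, pow_one]
  rwa [h4] at h3

theorem lemmaA [Finite G] [IsSimpleGroup G] {p q : ℕ} [hp : Fact p.Prime] [hq : Fact q.Prime] (hpq : p ≠ q) (P : Sylow p G)
    (hP : Nat.card (P : Subgroup G) = p) (hn1 : 1 < Nat.card (Sylow p G)) {x y : G} (hx : x ∈ (P : Subgroup G))
    (hox : orderOf x = p) (hoy : orderOf y = q) (hxy : Commute x y) (h : Nat.card (Sylow p G) ≤ p * q) : False := by
  classical
  haveI := Fintype.ofFinite (Sylow p G)
  -- `y` fixes `P`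
  have hyP : y • P = P := by
    have hgen : (P : Subgroup G) = zpowers x := by
      symm
      apply Subgroup.eq_of_le_of_card_ge
      · rw [Subgroup.zpowers_le]
        exact hx
      · rw [Nat.card_zpowers, hox, hP]
    have hC : ∀ h ∈ (P : Subgroup G), y * h * y⁻¹ = h := by
      intro h hh
      rw [hgen, Subgroup.mem_zpowers_iff] at hh
      obtain ⟨k, rfl⟩ := hh
      have hc : Commute y (x ^ k) := hxy.symm.zpow_right k
      rw [hc.eq]
      group
    have hmem : y ∈ normalizer ((P : Subgroup G) : Set G) := by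
      rw [Subgroup.mem_set_normalizer_iff]
      intro h
      constructor
      · intro hh
        have h1 := hC h hh
        show y * h * y⁻¹ ∈ (P : Subgroup G)
        rw [h1]
        exact hh
      · intro hh
        have hh' : y * h * y⁻¹ ∈ (P : Subgroup G) := hh
        have h2 := hC _ hh'
        have h3 : h = y * h * y⁻¹ := by
          calc h = y⁻¹ * (y * h * y⁻¹) * y := by group
            _ = y⁻¹ * (y * (y * h * y⁻¹) * y⁻¹) * y := by rw [h2]
            _ = y * h * y⁻¹ := by group
        show h ∈ (P : Subgroup G)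
        rw [h3]
        exact hh'
    exact Sylow.smul_eq_iff_mem_normalizer.mpr hmem
  -- `y` fixes everything
  have hall : ∀ R : Sylow p G, y • R = R := by
    intro R
    by_contra hyR
    have hPR : P ≠ R := by
      rintro rfl
      exact hyR hyP
    have hpos := hp.out.pos
    have hqos := hq.out.pos
    let f : Fin p × Fin q → {S : Sylow p G // S ≠ P} := fun ij => ⟨(x ^ (ij.1 : ℕ) * y ^ (ij.2 : ℕ)) • R, by
      intro he
      apply hPR
      have h1 : (x ^ (ij.1 : ℕ) * y ^ (ij.2 : ℕ)) • P = P := by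
        rw [mul_smul]
        have h2 : ∀ k : ℕ, (y ^ k) • P = P := by
          intro k
          induction k with
          | zero => simp
          | succ k ih => rw [pow_succ, mul_smul, hyP, ih]
        rw [h2]
        have h3 : ∀ k : ℕ, (x ^ k) • P = P := by
          intro k
          rw [Sylow.smul_eq_iff_mem_normalizer]
          exact Subgroup.le_normalizer (pow_mem hx k)
        rw [h3]
      have h4 : (x ^ (ij.1 : ℕ) * y ^ (ij.2 : ℕ)) • R = (x ^ (ij.1 : ℕ) * y ^ (ij.2 : ℕ)) • P := by
        rw [he, h1]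
      exact (smul_left_cancel _ h4).symm⟩
    have hinj : Function.Injective f := by
      rintro ⟨i, j⟩ ⟨i', j'⟩ he
      have he' : (x ^ (i : ℕ) * y ^ (j : ℕ)) • R = (x ^ (i' : ℕ) * y ^ (j' : ℕ)) • R := congrArg Subtype.val he
      have hx1 : x ^ p = 1 := by rw [← hox, pow_orderOf_eq_one]
      have hy1 : y ^ q = 1 := by rw [← hoy, pow_orderOf_eq_one]
      have h1 : (x ^ (p - (i' : ℕ) + (i : ℕ)) * y ^ (q - (j' : ℕ) + (j : ℕ))) • R = R := by
        have h2 : x ^ (p - (i' : ℕ) + (i : ℕ)) * y ^ (q - (j' : ℕ) + (j : ℕ)) =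
            (x ^ (p - (i' : ℕ)) * y ^ (q - (j' : ℕ))) * (x ^ (i : ℕ) * y ^ (j : ℕ)) := by
          rw [pow_add, pow_add]
          have hc : Commute (y ^ (q - (j' : ℕ))) (x ^ (i : ℕ)) := (hxy.pow_pow _ _).symm
          calc _ = x ^ (p - (i' : ℕ)) * (x ^ (i : ℕ) * y ^ (q - (j' : ℕ))) * y ^ (j : ℕ) := by group
            _ = x ^ (p - (i' : ℕ)) * (y ^ (q - (j' : ℕ)) * x ^ (i : ℕ)) * y ^ (j : ℕ) := by rw [hc.eq]
            _ = _ := by group
        rw [h2, mul_smul, he', ← mul_smul]
        have h3 : (x ^ (p - (i' : ℕ)) * y ^ (q - (j' : ℕ))) * (x ^ (i' : ℕ) * y ^ (j' : ℕ)) = 1 := by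
          have hc : Commute (y ^ (q - (j' : ℕ))) (x ^ (i' : ℕ)) := (hxy.pow_pow _ _).symm
          calc _ = x ^ (p - (i' : ℕ)) * (y ^ (q - (j' : ℕ)) * x ^ (i' : ℕ)) * y ^ (j' : ℕ) := by group
            _ = x ^ (p - (i' : ℕ)) * (x ^ (i' : ℕ) * y ^ (q - (j' : ℕ))) * y ^ (j' : ℕ) := by rw [hc.eq]
            _ = (x ^ (p - (i' : ℕ)) * x ^ (i' : ℕ)) * (y ^ (q - (j' : ℕ)) * y ^ (j' : ℕ)) := by group
            _ = x ^ (p - (i' : ℕ) + (i' : ℕ)) * y ^ (q - (j' : ℕ) + (j' : ℕ)) := by rw [pow_add, pow_add]
            _ = 1 := by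
              rw [Nat.sub_add_cancel i'.2.le, Nat.sub_add_cancel j'.2.le, hx1, hy1, one_mul]
        rw [h3, one_smul]
      obtain ⟨ha, hb⟩ := core_fix hpq P R hP hPR hx hox hoy hxy hyR h1
      have hi : (i : ℕ) = i' := by
        have h2 := i.2
        have h3 := i'.2
        have h4 : p ∣ (p - (i' : ℕ) + (i : ℕ)) := ha
        obtain ⟨k, hk⟩ := h4
        have h5 : k = 1 ∨ k = 0 ∨ 2 ≤ k := by omega
        rcases h5 with rfl | rfl | h5
        · omega
        · omega
        · have : p * 2 ≤ p * k := Nat.mul_le_mul_left p h5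
          omega
      have hj : (j : ℕ) = j' := by
        have h2 := j.2
        have h3 := j'.2
        obtain ⟨k, hk⟩ := hb
        have h5 : k = 1 ∨ k = 0 ∨ 2 ≤ k := by omega
        rcases h5 with rfl | rfl | h5
        · omega
        · omega
        · have : q * 2 ≤ q * k := Nat.mul_le_mul_left q h5
          omega
      exact Prod.ext (Fin.ext hi) (Fin.ext hj)
    have h1 := Fintype.card_le_of_injective f hinj
    rw [Fintype.card_prod, Fintype.card_fin, Fintype.card_fin, Fintype.card_subtype_compl, Fintype.card_subtype_eq] at h1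
    have h2 : Fintype.card (Sylow p G) = Nat.card (Sylow p G) := (Nat.card_eq_fintype_card).symm
    have h3 : 0 < p * q := by positivity
    rw [h2] at h1
    omega
  -- the kernel
  have hker := IsSimpleGroup.eq_bot_or_eq_top_of_normal (MulAction.toPermHom G (Sylow p G)).ker inferInstance
  have hyk : y ∈ (MulAction.toPermHom G (Sylow p G)).ker := by
    rw [MonoidHom.mem_ker]
    ext1 R
    exact hall R
  rcases hker with hb | ht
  · rw [hb] at hyk
    have := Subgroup.mem_bot.mp hyk
    rw [this, orderOf_one] at hoy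
    exact hq.out.one_lt.ne hoy
  · obtain ⟨R, hR⟩ : ∃ R : Sylow p G, R ≠ P := by
      haveI : Nontrivial (Sylow p G) := Finite.one_lt_card_iff_nontrivial.mp hn1
      exact exists_ne P
    obtain ⟨g, hg⟩ := MulAction.exists_smul_eq G P R
    have h1 : g ∈ (MulAction.toPermHom G (Sylow p G)).ker := by
      rw [ht]
      trivial
    rw [MonoidHom.mem_ker] at h1
    have h2 : g • P = P := by
      have := congrArg (fun σ : Equiv.Perm (Sylow p G) => σ P) h1
      exact this
    rw [h2] at hg
    exact hR hg.symm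

end Cfsg.Agent.Lib.R6232
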