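import Mathlib
import Cfsg.Agent.Lib.Small.Sweep
import Cfsg.Agent.Lib.Small.BrauerKill
import Cfsg.Agent.Lib.Small.BrauerKill2
import Cfsg.Agent.Lib.R6232.LemmaA
import Cfsg.Agent.S1010
import Cfsg.Agent.S4304

/-! Filters on the local data at a prime exactly dividing the group order. -/

set_option autoImplicit false
set_option linter.unusedSectionVars false
set_option linter.unusedVariables false

namespace Cfsg.Agent.Lib.R6232

open Cfsg Cfsg.Agent.Lib.Char Cfsg.Agent.Lib.Blocks Cfsg.Agent.Lib.Small Cfsg.Agent.Lib.Small.BD Subgroup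

universe u

variable {G : Type u} [Group G] [Fintype G] {p : ℕ} [hp : Fact p.Prime]

/-- the check at `e = 2` -/
def Chk2 (p N : ℕ) : Prop :=
  ∀ x ∈ Nat.divisors N, (x % p = 1 → x = 1 ∨ ¬ (x + 1) ∣ p * N) ∧ (x % p = p - 1 → x = 2 ∨ ¬ (x - 1) ∣ p * N)

instance (p N : ℕ) : Decidable (Chk2 p N) := by unfold Chk2; infer_instance

/-- the check at `e = 2` with large degrees -/
def ChkF2 (p N : ℕ) : Prop :=
  ∀ x ∈ Nat.divisors N, (x % p = 1 → (x + 1) ∣ p * N → x < 2 * p ∨ x + 1 < 2 * p) ∧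
      (x % p = p - 1 → (x - 1) ∣ p * N → x < 2 * p ∨ x - 1 < 2 * p)

instance (p N : ℕ) : Decidable (ChkF2 p N) := by unfold ChkF2; infer_instance

/-- the check at `e = 3` -/
def Chk3 (p N : ℕ) : Prop :=
  ∀ x₁ ∈ Nat.divisors N, ∀ x₂ ∈ Nat.divisors N, ∀ a₁ ∈ ({1, -1} : Finset ℤ), ∀ a₂ ∈ ({1, -1} : Finset ℤ),
      x₁ ≠ 1 → x₂ ≠ 1 → ((x₁ : ℤ) - a₁) % p = 0 → ((x₂ : ℤ) - a₂) % p = 0 →
        (1 + a₁ * x₁ + a₂ * x₂).natAbs ≤ 1 ∨ ¬ (1 + a₁ * x₁ + a₂ * x₂).natAbs ∣ p * N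

instance (p N : ℕ) : Decidable (Chk3 p N) := by unfold Chk3; infer_instance

/-- the check at `e = 3` with large degrees -/
def ChkF3 (p N : ℕ) : Prop :=
  ∀ x₁ ∈ Nat.divisors N, ∀ x₂ ∈ Nat.divisors N, ∀ a₁ ∈ ({1, -1} : Finset ℤ), ∀ a₂ ∈ ({1, -1} : Finset ℤ),
      ((x₁ : ℤ) - a₁) % p = 0 → ((x₂ : ℤ) - a₂) % p = 0 → x₁ < 2 * p ∨ x₂ < 2 * p ∨
        (1 + a₁ * x₁ + a₂ * x₂).natAbs < 2 * p ∨ ¬ (1 + a₁ * x₁ + a₂ * x₂).natAbs ∣ p * N

instance (p N : ℕ) : Decidable (ChkF3 p N) := by unfold ChkF3; infer_instance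

/-- the check at `p = 5`, `e = 4` -/
def Chk4 (N : ℕ) : Prop := ∀ x ∈ Nat.divisors N, x % 2 = 1 → x % 5 = 1 ∨ x % 5 = 4 → x < 10

instance (N : ℕ) : Decidable (Chk4 N) := by unfold Chk4; infer_instance

/-- all large candidate degrees are divisible by `q` -/
def ChkMod (p N q : ℕ) : Prop :=
  ∀ x ∈ Nat.divisors N, 2 * p ≤ x → ∀ a ∈ ([1, -1, 2, -2, 3, -3] : List ℤ), a ^ 2 ≤ (p : ℤ) - 1 →
    ((x : ℤ) - a) % p = 0 → q ∣ x

instance (p N q : ℕ) : Decidable (ChkMod p N q) := by unfold ChkMod; infer_instance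

/-- no two consecutive large divisors -/
def ChkCons (N : ℕ) : Prop := ∀ x ∈ Nat.divisors N, 6 ≤ x → ¬ (x + 1) ∈ Nat.divisors N

instance (N : ℕ) : Decidable (ChkCons N) := by unfold ChkCons; infer_instance

/-- The options that are excluded. -/
def Opt (p N m n c : ℕ) : Prop :=
  (p = 7 ∧ n = 15) ∨ (p = 5 ∧ n = 21) ∨
  (∃ q ∈ Nat.divisors c, isP q = true ∧ n ≤ p * q ∧ q ≠ p) ∨
  (m = 2 ∧ 1 < (p - 1) / 2 ∧ Chk2 p N) ∨
  (m = 2 ∧ 1 < c ∧ 1 < (p - 1) / 2 ∧ ChkF2 p N) ∨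
  (m = 3 ∧ 1 < (p - 1) / 3 ∧ Chk3 p N) ∨
  (m = 3 ∧ 1 < c ∧ 1 < (p - 1) / 3 ∧ ChkF3 p N) ∨
  (p = 5 ∧ m = 4 ∧ 1 < c ∧ Chk4 N) ∨
  (m + 1 = p ∧ 1 < c ∧ p ≤ 16 ∧ ∃ q ∈ [2, 3, 5], ChkMod p N q) ∨
  (p = 3 ∧ 1 < c ∧ ChkCons N)

instance (p N m n c : ℕ) : Decidable (Opt p N m n c) := by unfold Opt; infer_instance

theorem false_two' [IsSimpleGroup G] (hnc : ¬ IsMulCommutative G) (P : Sylow p G) (hP : Nat.card (P : Subgroup G) = p)
    {N r : ℕ} (hcard : Nat.card G = p * N) (hN : N ≠ 0) (hp2 : p ≠ 2) (hr : 2 * r + 1 = p) (hr1 : 1 < r)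
    (hCN : (centralizer ((P : Subgroup G) : Set G)).relIndex (normalizer ((P : Subgroup G) : Set G)) = 2)
    (hchk : Chk2 p N) : False := by
  obtain ⟨M, χ, η, a, c, hM, hχ, hη, hχ1, hη1, ha, hd, hy, -, -, -⟩ := two_data hnc P hP hp2 hr hr1 hCN
  have h1 := one_lt_degree hnc hχ1
  have h2 := one_lt_degree hnc hη1
  obtain ⟨h3, h4⟩ := hchk _ (degree_coprime ha hd hcard hN)
  have hyd := charDegree_dvd_card η.2
  rw [hcard] at hyd
  have hp1 := hp.out.one_lt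
  rcases ha with rfl | rfl
  · have h5 : charDegree (η : G → ℂ) = charDegree (χ : G → ℂ) + 1 := by exact_mod_cast hy
    rw [h5] at hyd h2
    rcases h3 (by rw [mod_of_dvd_one hd, Nat.mod_eq_of_lt hp1]) with h6 | h6
    · omega
    · exact h6 hyd
  · have h5 : charDegree (η : G → ℂ) = charDegree (χ : G → ℂ) - 1 := by
      have : (charDegree (η : G → ℂ) : ℤ) + 1 = charDegree (χ : G → ℂ) := by linarith
      omega
    rw [h5] at hyd h2
    rcases h4 (mod_of_dvd_neg_one hd) with h6 | h6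
    · omega
    · exact h6 hyd

theorem false_three' [IsSimpleGroup G] (hnc : ¬ IsMulCommutative G) (P : Sylow p G) (hP : Nat.card (P : Subgroup G) = p)
    {N r : ℕ} (hcard : Nat.card G = p * N) (hN : N ≠ 0) (hr : 3 * r + 1 = p) (hr1 : 1 < r)
    (hCN : (centralizer ((P : Subgroup G) : Set G)).relIndex (normalizer ((P : Subgroup G) : Set G)) = 3)
    (hchk : Chk3 p N) : False := by
  obtain ⟨M, χ₁, χ₂, η, a₁, a₂, ε, hM, h₁, h₂, hη, h₁1, h₂1, hη1, ha₁, ha₂, hε, hd₁, hd₂, hrel⟩ := three_data hnc P hP hr hr1 hCN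
  have hx₁ := one_lt_degree hnc h₁1
  have hx₂ := one_lt_degree hnc h₂1
  have hy := one_lt_degree hnc hη1
  have hyd := charDegree_dvd_card η.2
  rw [hcard] at hyd
  have ha₁' : a₁ ∈ ({1, -1} : Finset ℤ) := by simpa using ha₁
  have ha₂' : a₂ ∈ ({1, -1} : Finset ℤ) := by simpa using ha₂
  have hval : (1 + a₁ * (charDegree (χ₁ : G → ℂ) : ℤ) + a₂ * (charDegree (χ₂ : G → ℂ) : ℤ)).natAbs = charDegree (η : G → ℂ) := by
    have h1 : 1 + a₁ * (charDegree (χ₁ : G → ℂ) : ℤ) + a₂ * (charDegree (χ₂ : G → ℂ) : ℤ) = - ε * (charDegree (η : G → ℂ) : ℤ) := by linarith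
    rw [h1]
    rcases hε with rfl | rfl
    · simp
    · simp
  rcases hchk _ (degree_coprime ha₁ hd₁ hcard hN) _ (degree_coprime ha₂ hd₂ hcard hN) a₁ ha₁' a₂ ha₂'
    (by omega) (by omega) (Int.emod_eq_zero_of_dvd hd₁) (Int.emod_eq_zero_of_dvd hd₂) with h | h
  · rw [hval] at h
    omega
  · rw [hval] at h
    exact h hyd

/-- The sum relation from `form_full`. -/
theorem form_sum {M : Ideal AlgInt} {X : Finset (IrrCharacter G)} {a : IrrCharacter G → ℤ} {c : ℕ} {P : Sylow p G}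
    (F : BlockForm P M X a 0 (one' G) c) : 1 + ∑ χ ∈ X.erase (one' G), a χ * (charDegree (χ : G → ℂ) : ℤ) = 0 := by
  classical
  have hone : ¬ p ∣ orderOf (1 : G) := by
    rw [orderOf_one]
    exact hp.out.one_lt.ne' ∘ Nat.dvd_one.mp
  have h1 := F.reg 1 hone
  simp only [Int.cast_zero, zero_mul, zero_add] at h1
  have h2 : ∑ χ ∈ X, a χ * (charDegree (χ : G → ℂ) : ℤ) = 0 := by
    have h3 : ((∑ χ ∈ X, a χ * (charDegree (χ : G → ℂ) : ℤ) : ℤ) : ℂ) = ((0 : ℤ) : ℂ) := by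
      push_cast
      rw [← h1]
      refine Finset.sum_congr rfl fun χ _ => ?_
      rw [apply_one_eq_charDegree (IsIrrCharacter.isCharacter χ.2)]
    exact Int.cast_injective h3
  rw [← Finset.add_sum_erase _ _ F.one_mem, F.a_one] at h2
  have hdeg1 : charDegree ((one' G : IrrCharacter G) : G → ℂ) = 1 := charDegree_eq (by simp)
  rw [hdeg1] at h2
  simpa using h2

/-- A degree with a small residue divides the `p`-complementary part. -/
theorem degree_mem {χ : IrrCharacter G} {a : ℤ} (h0 : a ≠ 0) (hsq : a ^ 2 < (p : ℤ) ^ 2) (hd : (p : ℤ) ∣ (charDegree (χ : G → ℂ) : ℤ) - a) {N : ℕ}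
    (hcard : Nat.card G = p * N) (hN : N ≠ 0) : charDegree (χ : G → ℂ) ∈ Nat.divisors N := by
  have hpr := hp.out
  have hcop : Nat.Coprime (charDegree (χ : G → ℂ)) p := by
    rw [Nat.coprime_comm, Nat.Prime.coprime_iff_not_dvd hpr]
    intro h
    obtain ⟨t, ht⟩ := h
    obtain ⟨k, hk⟩ := hd
    rw [ht] at hk
    have h1 : (p : ℤ) ∣ a := ⟨t - k, by push_cast at hk; linarith⟩
    have h2 : |a| < (p : ℤ) := abs_lt_of_sq_lt_sq hsq (by positivity)
    exact h0 (Int.eq_zero_of_abs_lt_dvd h1 h2)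
  have h2 := charDegree_dvd_card χ.2
  rw [hcard] at h2
  exact Nat.mem_divisors.mpr ⟨hcop.dvd_of_dvd_mul_left h2, hN⟩

theorem false_form_mod [IsSimpleGroup G] (hnc : ¬ IsMulCommutative G) (P : Sylow p G) (hP : Nat.card (P : Subgroup G) = p)
    {N q : ℕ} (hcard : Nat.card G = p * N) (hN : N ≠ 0) (hq : 1 < q) (hp16 : p ≤ 16)
    (hCN : (centralizer ((P : Subgroup G) : Set G)).relIndex (normalizer ((P : Subgroup G) : Set G)) = p - 1)
    (hC : ¬ IsPGroup p (centralizer ((P : Subgroup G) : Set G)))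
    (hchk : ChkMod p N q) : False := by
  classical
  obtain ⟨M, X, a, c, F, hnorm⟩ := form_full P hP hCN
  have h2 := form_sum F
  have hdv : (q : ℤ) ∣ ∑ χ ∈ X.erase (one' G), a χ * (charDegree (χ : G → ℂ) : ℤ) := by
    apply Finset.dvd_sum
    intro χ hχ
    have hχ1 : χ ≠ one' G := Finset.ne_of_mem_erase hχ
    have hχX := Finset.mem_of_mem_erase hχ
    have hsq : a χ ^ 2 ≤ (p : ℤ) - 1 := by
      have h5 : ∑ χ ∈ X, a χ ^ 2 = 1 + ∑ χ ∈ X.erase (one' G), a χ ^ 2 := by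
        rw [← Finset.add_sum_erase _ _ F.one_mem, F.a_one]
        norm_num
      have h6 : a χ ^ 2 ≤ ∑ χ ∈ X.erase (one' G), a χ ^ 2 :=
        Finset.single_le_sum (f := fun χ => a χ ^ 2) (fun j _ => sq_nonneg _) hχ
      rw [h5] at hnorm
      linarith
    have hp16' : (p : ℤ) ≤ 16 := by exact_mod_cast hp16
    have h0 := F.a_ne χ hχX
    have hd := F.deg_sub χ hχX
    have hp2 : (2 : ℤ) ≤ p := by exact_mod_cast hp.out.two_le
    have hmem := degree_mem (N := N) h0 (by nlinarith) hd hcard hN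
    have hx := le_degree_of_not_isPGroup hnc F.modular P hC (F.mem_block χ hχX) hχ1
    have hL : a χ ∈ ([1, -1, 2, -2, 3, -3] : List ℤ) := by
      have h5 : |a χ| < 4 := by
        apply abs_lt_of_sq_lt_sq
        · linarith
        · norm_num
      have h6 := abs_lt.mp h5
      have h7 : a χ = 1 ∨ a χ = -1 ∨ a χ = 2 ∨ a χ = -2 ∨ a χ = 3 ∨ a χ = -3 := by omega
      simpa using h7
    have h8 := hchk _ hmem hx _ hL hsq (Int.emod_eq_zero_of_dvd hd)
    exact Dvd.dvd.mul_left (by exact_mod_cast h8) _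
  obtain ⟨k, hk⟩ := hdv
  rw [hk] at h2
  have h3 : (q : ℤ) ∣ 1 := ⟨-k, by linarith⟩
  have h4 := Int.le_of_dvd (by norm_num) h3
  have h5 : (1 : ℤ) < q := by exact_mod_cast hq
  omega

theorem false_form_cons [IsSimpleGroup G] (hnc : ¬ IsMulCommutative G) (P : Sylow 3 G) [Fact (Nat.Prime 3)]
    (hP : Nat.card (P : Subgroup G) = 3)
    {N : ℕ} (hcard : Nat.card G = 3 * N) (hN : N ≠ 0)
    (hCN : (centralizer ((P : Subgroup G) : Set G)).relIndex (normalizer ((P : Subgroup G) : Set G)) = 2)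
    (hC : ¬ IsPGroup 3 (centralizer ((P : Subgroup G) : Set G)))
    (hchk : ChkCons N) : False := by
  classical
  obtain ⟨M, X, a, c, F, hnorm⟩ := form_full P hP hCN
  have h2 := form_sum F
  have h1 : ∑ χ ∈ X.erase (one' G), a χ ^ 2 = 2 := by
    have h5 : ∑ χ ∈ X, a χ ^ 2 = 1 + ∑ χ ∈ X.erase (one' G), a χ ^ 2 := by
      rw [← Finset.add_sum_erase _ _ F.one_mem, F.a_one]
      norm_num
    rw [h5] at hnorm
    push_cast at hnorm
    linarith
  obtain ⟨χ₁, χ₂, hne12, hχ, hχa₁, hχa₂⟩ := sum_sq_eq_two (fun j hj => F.a_ne j (Finset.mem_of_mem_erase hj)) h1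
  have hm₁ : χ₁ ∈ X.erase (one' G) := by rw [hχ]; simp
  have hm₂ : χ₂ ∈ X.erase (one' G) := by rw [hχ]; simp
  have hX₁ := Finset.mem_of_mem_erase hm₁
  have hX₂ := Finset.mem_of_mem_erase hm₂
  have hx₁ := le_degree_of_not_isPGroup hnc F.modular P hC (F.mem_block _ hX₁) (Finset.ne_of_mem_erase hm₁)
  have hx₂ := le_degree_of_not_isPGroup hnc F.modular P hC (F.mem_block _ hX₂) (Finset.ne_of_mem_erase hm₂)
  have hd₁ := degree_coprime hχa₁ (F.deg_sub _ hX₁) hcard hN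
  have hd₂ := degree_coprime hχa₂ (F.deg_sub _ hX₂) hcard hN
  rw [hχ, Finset.sum_pair hne12] at h2
  rcases hχa₁ with h | h <;> rcases hχa₂ with h' | h' <;> rw [h, h'] at h2
  · omega
  · have h3 : charDegree (χ₂ : G → ℂ) = charDegree (χ₁ : G → ℂ) + 1 := by omega
    apply hchk _ hd₁ (by omega)
    rw [← h3]
    exact hd₂
  · have h3 : charDegree (χ₁ : G → ℂ) = charDegree (χ₂ : G → ℂ) + 1 := by omega
    apply hchk _ hd₂ (by omega)
    rw [← h3]
    exact hd₁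
  · omega

/-- Sieve of the local data. -/
theorem setup_filter [IsSimpleGroup G] {N : ℕ} (hcard : Nat.card G = p * N) (hpN : ¬ p ∣ N)
    (hN1 : 1 < N) (hp2 : p ≠ 2) (R : ℕ → ℕ → ℕ → Prop)
    (h : ∀ m ∈ Nat.divisors (p - 1), ∀ n ∈ Nat.divisors N, ∀ c ∈ Nat.divisors N, 1 < m → 1 < n → n % p = 1 →
      c * m * n = N → (50 ≤ n ∨ 2 * (p * N) ∣ n.factorial) → (n = p + 1 → 2 * (p * c * m) ∣ p * (p - 1)) →
      Opt p N m n c ∨ R m n c) :
    ∃ (P : Sylow p G) (m c n : ℕ), Nat.card (P : Subgroup G) = p ∧ ¬ IsMulCommutative G ∧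
      (centralizer ((P : Subgroup G) : Set G)).relIndex (normalizer ((P : Subgroup G) : Set G)) = m ∧
      Nat.card (centralizer ((P : Subgroup G) : Set G)) = p * c ∧ Nat.card (Sylow p G) = n ∧ c * m * n = N ∧ R m n c := by
  obtain ⟨P, m, c, n, hP, hnc, hCN, hCc, hn, hmd, hm1, hcd, hnd, hcmn, hnp, hn1, hfac, hsm⟩ :=
    exists_setup2 hcard hpN hN1 hp2
  have hpr := hp.out
  have hN0 : N ≠ 0 := by omega
  have hmdvd : m ∣ p - 1 := Nat.dvd_of_mem_divisors hmd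
  have hp3 : 3 ≤ p := by
    have := hpr.two_le
    omega
  have hodd : 2 * ((p - 1) / 2) + 1 = p := by
    obtain ⟨k, hk⟩ := hpr.odd_of_ne_two hp2
    omega
  have hcdvd : c ∣ N := Nat.dvd_of_mem_divisors hcd
  have hpc : ¬ p ∣ c := fun h => hpN (h.trans hcdvd)
  have hC : 1 < c → ¬ IsPGroup p (centralizer ((P : Subgroup G) : Set G)) :=
    fun hc1 => not_isPGroup_of_card hCc hc1 hpc
  rcases h m hmd n hnd c hcd hm1 hn1 hnp hcmn (by
      by_cases h50 : 50 ≤ n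
      · exact Or.inl h50
      · exact Or.inr hfac) hsm with hO | hR
  · exfalso
    rcases hO with ⟨rfl, rfl⟩ | ⟨rfl, rfl⟩ | ⟨q, hqc, hqP, hqn, hqp⟩ | ⟨rfl, hr, hc⟩ | ⟨rfl, hc1, hr, hc⟩ | ⟨rfl, hr, hc⟩ | ⟨rfl, hc1, hr, hc⟩ |
      ⟨rfl, rfl, hc1, hc⟩ | ⟨hm, hc1, hp16, q, hq, hc⟩ | ⟨rfl, hc1, hc⟩
    · exact Cfsg.Agent.S4304.result hn
    · exact Cfsg.Agent.S1010.result hn
    · -- Lemma A
      haveI hqF : Fact q.Prime := ⟨prime_of_isP hqP⟩
      have hqd : q ∣ Nat.card (centralizer ((P : Subgroup G) : Set G)) := by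
        rw [hCc]
        exact Dvd.dvd.mul_left (Nat.dvd_of_mem_divisors hqc) p
      obtain ⟨y, hy⟩ := exists_prime_orderOf_dvd_card' q hqd
      have hPd : p ∣ Nat.card (P : Subgroup G) := by rw [hP]
      obtain ⟨x, hx⟩ := exists_prime_orderOf_dvd_card' p hPd
      have hcomm : Commute (x : G) (y : G) := by
        have h1 := Subgroup.mem_centralizer_iff.mp y.2 (x : G) x.2
        exact h1
      refine lemmaA hqp.symm P hP (by rw [hn]; exact hn1) x.2 ?_ ?_ hcomm (by rw [hn]; exact hqn)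
      · rw [← Subgroup.orderOf_coe] at hx
        exact hx
      · rw [← Subgroup.orderOf_coe] at hy
        exact hy
    · exact false_two' hnc P hP hcard hN0 hp2 hodd hr hCN hc
    · exact false_two hnc P hP hcard hN0 hp2 hodd hr hCN (hC hc1) hc
    · have h3 : 3 * ((p - 1) / 3) + 1 = p := by
        have := Nat.mul_div_cancel' hmdvd
        omega
      exact false_three' hnc P hP hcard hN0 h3 hr hCN hc
    · have h3 : 3 * ((p - 1) / 3) + 1 = p := by
        have := Nat.mul_div_cancel' hmdvd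
        omega
      exact false_three hnc P hP hcard hN0 h3 hr hCN (hC hc1) hc
    · exact false_four hnc P hP hcard hN0 hCN (hC hc1) hc
    · have hCN' : (centralizer ((P : Subgroup G) : Set G)).relIndex (normalizer ((P : Subgroup G) : Set G)) = p - 1 := by
        rw [hCN]
        omega
      have hq1 : 1 < q := by
        simp only [List.mem_cons, List.not_mem_nil, or_false] at hq
        omega
      exact false_form_mod hnc P hP hcard hN0 hq1 hp16 hCN' (hC hc1) hc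
    · have hm2 : m = 2 := by
        have : m ∈ Nat.divisors 2 := hmd
        have h4 : m ∣ 2 := Nat.dvd_of_mem_divisors this
        have h5 := Nat.le_of_dvd (by norm_num) h4
        omega
      subst hm2
      exact false_form_cons hnc P hP hcard hN0 hCN (hC hc1) hc
  · exact ⟨P, m, c, n, hP, hnc, hCN, hCc, hn, hcmn, hR⟩

/-- All options excluded. -/
theorem false_of_opts [IsSimpleGroup G] {N : ℕ} (hcard : Nat.card G = p * N) (hpN : ¬ p ∣ N)
    (hN1 : 1 < N) (hp2 : p ≠ 2)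
    (h : ∀ m ∈ Nat.divisors (p - 1), ∀ n ∈ Nat.divisors N, ∀ c ∈ Nat.divisors N, 1 < m → 1 < n → n % p = 1 →
      c * m * n = N → (50 ≤ n ∨ 2 * (p * N) ∣ n.factorial) → (n = p + 1 → 2 * (p * c * m) ∣ p * (p - 1)) →
      Opt p N m n c) : False := by
  obtain ⟨_, _, _, _, _, _, _, _, _, _, hR⟩ := setup_filter hcard hpN hN1 hp2 (fun _ _ _ => False)
    (fun m hm n hn c hc h1 h2 h3 h4 h5 h6 => Or.inl (h m hm n hn c hc h1 h2 h3 h4 h5 h6))
  exact hR

end Cfsg.Agent.Lib.R6232
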