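import Mathlib
import Cfsg.Agent.Lib.R6232.Tools
import Cfsg.Agent.Lib.SmallSimple.Intersect
import Cfsg.Agent.Lib.SmallSimple.Count
import Cfsg.Agent.Lib.Classical.SL2Local
import Cfsg.Agent.S0997

/-! The orders not handled by the sieve. -/

set_option autoImplicit false
set_option linter.unusedSectionVars false
set_option linter.unusedVariables false

namespace Cfsg.Agent.Lib.R6232

open Cfsg Cfsg.Agent.Lib.Small Cfsg.Agent.Lib.SmallSimple Subgroup

universe u

variable {G : Type u} [Group G]

/-- A self-normalizing Sylow subgroup of order `p^2` is impossible. -/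
theorem false_selfnorm [Finite G] [IsSimpleGroup G] (hnc : ¬ IsMulCommutative G) {p m : ℕ} [hp : Fact p.Prime]
    (hcard : Nat.card G = p ^ 2 * m) (hm : ¬ p ∣ m) (hn : Nat.card (Sylow p G) = m) : False := by
  obtain ⟨P⟩ : Nonempty (Sylow p G) := inferInstance
  have hc := sylow_card_of_eq P hcard hm
  have hi := sylow_index_of_eq P hcard hm
  have hidx := P.card_eq_index_normalizer
  rw [hn] at hidx
  have hle : (P : Subgroup G) ≤ normalizer ((P : Subgroup G) : Set G) := Subgroup.le_normalizer
  have hN : normalizer ((P : Subgroup G) : Set G) = (P : Subgroup G) := by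
    symm
    apply Subgroup.eq_of_le_of_card_ge hle
    have h1 := Subgroup.card_mul_index (normalizer ((P : Subgroup G) : Set G))
    have h2 : (normalizer ((P : Subgroup G) : Set G)).index = m := hidx.symm
    rw [h2, hcard] at h1
    have hm0 : 0 < m := by
      rcases Nat.eq_zero_or_pos m with h | h
      · subst h
        exact absurd (dvd_zero p) hm
      · exact h
    have h3 := Nat.eq_of_mul_eq_mul_right hm0 h1
    rw [h3, hc]
  have hcomm : IsMulCommutative (P : Subgroup G) := IsPGroup.isMulCommutative_of_card_eq_prime_sq (p := p) hc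
  have hpG : p ∣ Nat.card G := by
    rw [hcard]
    exact Dvd.dvd.mul_right (dvd_pow_self p (by norm_num)) m
  apply normalizer_not_le_centralizer hpG (not_isPGroup_of_noncomm hnc p) P
  intro g hg
  have hg' : g ∈ normalizer ((P : Subgroup G) : Set G) := hg
  rw [hN] at hg'
  rw [Subgroup.mem_centralizer_iff]
  intro h hh
  have := hcomm.is_comm.comm (⟨h, hh⟩ : (P : Subgroup G)) ⟨g, hg'⟩
  simpa [Subtype.ext_iff] using this

/-- A large subgroup of small index is impossible. -/
theorem false_large [Finite G] [IsSimpleGroup G] (hnc : ¬ IsMulCommutative G) {p a m : ℕ} [hp : Fact p.Prime]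
    (hcard : Nat.card G = p ^ a * m) (hm : ¬ p ∣ m) (ha : 2 ≤ a)
    (h1 : ∀ n ∈ Nat.divisors m, n % p = 1 → 1 < n → (50 ≤ n ∨ 2 * (p ^ a * m) ∣ n.factorial) → ¬ n ≡ 1 [MOD p ^ 2])
    (h2 : ∀ i ∈ List.range (m + 1), i * (p + 1) ≤ m → ¬ 2 * (p ^ a * m) ∣ i.factorial) : False := by
  obtain ⟨h3, h4, h5, h6⟩ := sylow_package hcard (by omega) hm (not_isPGroup_of_noncomm hnc p) hnc
  have hm0 : m ≠ 0 := by
    rintro rfl
    exact hm (dvd_zero p)
  have h7 := h1 _ (Nat.mem_divisors.mpr ⟨h4, hm0⟩) h3 h5 (by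
    rw [← hcard]
    by_cases h50 : 50 ≤ Nat.card (Sylow p G)
    · exact Or.inl h50
    · exact Or.inr h6)
  obtain ⟨N, hN, hN1, hN2⟩ := exists_large_subgroup_of_not_modEq hcard hm ha h7
  have h8 := two_mul_card_dvd_factorial hnc N hN
  obtain ⟨t, ht⟩ := hN1
  have h9 := Subgroup.card_mul_index N
  rw [ht, hcard] at h9
  have hpa : 0 < p ^ a := pow_pos hp.out.pos a
  have h10 : t * N.index = m := by
    apply Nat.eq_of_mul_eq_mul_left hpa
    rw [← h9]
    ring
  have h11 : p + 1 ≤ t := by
    rw [ht] at hN2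
    exact Nat.le_of_mul_le_mul_left hN2 hpa
  have h12 : N.index * (p + 1) ≤ m := by
    rw [← h10, mul_comm]
    exact Nat.mul_le_mul_right _ h11
  have h13 : N.index ≤ m := by
    rw [← h10]
    have : 0 < t := by omega
    exact Nat.le_mul_of_pos_left _ this
  exact h2 _ (List.mem_range.mpr (by omega)) h12 (by rw [← hcard]; exact h8)

/-- Orders of the form handled by the theorem on `p * q^b * g₀`. -/
theorem false_psl {p q b g₀ : ℕ} [Finite G] [IsSimpleGroup G] (hnc : ¬ IsMulCommutative G) (hp : p.Prime) (hq : q.Prime) (hpq : p ≠ q)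
    (hG' : Nat.card G = p * q ^ b * g₀) (hg : g₀ < p - 1) (hodd : Odd p) (h1 : 2 * Nat.card G ≠ p * (p ^ 2 - 1))
    (h2 : ∀ m ∈ List.range 10, p ≠ 2 ^ m + 1) (hp' : p < 2 ^ 10) : False := by
  have hcyc : ¬ IsCyclic G := fun h => hnc IsCyclic.isMulCommutative
  rcases Cfsg.Agent.S0997.result hcyc p q b g₀ hp hq hpq hG' hg with ⟨m, F, _, _, hF, -, ⟨e⟩⟩ | ⟨m, F, _, _, hF, hm, -, ⟨e⟩⟩
  · apply h1
    rw [Nat.card_congr e.toEquiv]
    exact Cfsg.Agent.Lib.Classical.card_psl2_odd hF hodd
  · by_cases hm10 : m < 10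
    · exact h2 m (List.mem_range.mpr hm10) hm
    · have : 2 ^ 10 ≤ 2 ^ m := Nat.pow_le_pow_right (by norm_num) (by omega)
      omega

theorem no_4212 [Finite G] [IsSimpleGroup G] (hnc : ¬ IsMulCommutative G) (h : Nat.card G = 4212) : False :=
  false_psl (p := 13) (q := 3) (b := 4) (g₀ := 4) hnc (by norm_num) (by norm_num) (by norm_num) (by rw [h]; norm_num) (by norm_num)
    (by decide) (by rw [h]; norm_num) (by decide) (by norm_num)

theorem no_4960 [Finite G] [IsSimpleGroup G] (hnc : ¬ IsMulCommutative G) (h : Nat.card G = 4960) : False :=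
  false_psl (p := 31) (q := 2) (b := 5) (g₀ := 5) hnc (by norm_num) (by norm_num) (by norm_num) (by rw [h]; norm_num) (by norm_num)
    (by decide) (by rw [h]; norm_num) (by decide) (by norm_num)

theorem no_4500 [Finite G] [IsSimpleGroup G] (hnc : ¬ IsMulCommutative G) (h : Nat.card G = 4500) : False := by
  haveI hp : Fact (Nat.Prime 5) := ⟨by norm_num⟩
  exact false_large hnc (p := 5) (a := 3) (m := 36) (by rw [h]; norm_num) (by norm_num) (by norm_num)
    (by decide +kernel) (by decide +kernel)

theorem no_6000 [Finite G] [IsSimpleGroup G] (hnc : ¬ IsMulCommutative G) (h : Nat.card G = 6000) : False := by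
  haveI hp : Fact (Nat.Prime 5) := ⟨by norm_num⟩
  exact false_large hnc (p := 5) (a := 3) (m := 48) (by rw [h]; norm_num) (by norm_num) (by norm_num)
    (by decide +kernel) (by decide +kernel)

theorem no_5292 [Finite G] [IsSimpleGroup G] (hnc : ¬ IsMulCommutative G) (h : Nat.card G = 5292) : False := by
  haveI hp : Fact (Nat.Prime 7) := ⟨by norm_num⟩
  exact false_large hnc (p := 7) (a := 2) (m := 108) (by rw [h]; norm_num) (by norm_num) (by norm_num)
    (by decide +kernel) (by decide +kernel)

theorem no_4900 [Finite G] [IsSimpleGroup G] (hnc : ¬ IsMulCommutative G) (h : Nat.card G = 4900) : False := by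
  haveI hp : Fact (Nat.Prime 5) := ⟨by norm_num⟩
  have hcard : Nat.card G = 5 ^ 2 * 196 := by rw [h]; norm_num
  obtain ⟨h3, h4, h5, h6⟩ := sylow_package hcard (by norm_num) (by norm_num) (not_isPGroup_of_noncomm hnc 5) hnc
  have key : ∀ n ∈ Nat.divisors 196, n % 5 = 1 → 1 < n → n = 196 := by decide +kernel
  have h7 := key _ (Nat.mem_divisors.mpr ⟨h4, by norm_num⟩) h3 h5
  exact false_selfnorm hnc hcard (by norm_num) h7

/-- An element of order four in the normalizer forces a cyclic Sylow `2`-subgroup. -/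
theorem no_5460 [Finite G] [IsSimpleGroup G] (hnc : ¬ IsMulCommutative G) (h : Nat.card G = 5460) : False := by
  classical
  haveI := Fintype.ofFinite G
  haveI hp : Fact (Nat.Prime 13) := ⟨by norm_num⟩
  haveI hp2 : Fact (Nat.Prime 2) := ⟨Nat.prime_two⟩
  obtain ⟨P, m, c, n, hP, -, hCN, hCc, hn, hcmn, hm4, hc1⟩ := setup_filter (p := 13) (N := 420) (by rw [h]) (by norm_num) (by norm_num)
    (by norm_num) (fun m _ c => m = 4 ∧ c = 1) (by decide +kernel)
  subst hm4 hc1
  have hNc : Nat.card (normalizer ((P : Subgroup G) : Set G)) = 52 := by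
    rw [Cfsg.Agent.Lib.Small.BD.card_normalizer_eq (P : Subgroup G) hCN, hCc]
  set N := normalizer ((P : Subgroup G) : Set G) with hNdef
  -- a subgroup of order 4 in the normalizer
  obtain ⟨S, hS⟩ := Sylow.exists_subgroup_card_pow_prime (G := N) 2 (n := 2) (by rw [hNc]; norm_num)
  haveI hcycP : IsCyclic (P : Subgroup G) := isCyclic_of_prime_card (p := 13) hP
  haveI hpc : Fact (Nat.card (P : Subgroup G)).Prime := ⟨by rw [hP]; exact hp.out⟩
  haveI hAut : IsCyclic (MulAut (P : Subgroup G)) :=
    isCyclic_of_surjective (IsCyclic.mulAutMulEquiv (P : Subgroup G)).symm.toMonoidHom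
      (IsCyclic.mulAutMulEquiv (P : Subgroup G)).symm.surjective
  let φ : S →* MulAut (P : Subgroup G) := (Subgroup.normalizerMonoidHom (P : Subgroup G)).comp S.subtype
  have hφ : Function.Injective φ := by
    rw [injective_iff_map_eq_one]
    intro s hs
    have h1 : s.1 ∈ (Subgroup.normalizerMonoidHom (P : Subgroup G)).ker := hs
    rw [Subgroup.normalizerMonoidHom_ker] at h1
    have h2 : (s.1 : G) ∈ centralizer ((P : Subgroup G) : Set G) := h1
    have h3 : ((s.1 : G)) ^ 13 = 1 := by
      have := pow_card_eq_one' (x := (⟨_, h2⟩ : centralizer ((P : Subgroup G) : Set G)))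
      rw [hCc] at this
      exact congrArg Subtype.val this
    have h4 : s ^ 4 = 1 := by
      have := pow_card_eq_one' (x := s)
      rw [hS] at this
      exact this
    have h5 : ((s.1 : G)) ^ 4 = 1 := by
      have := congrArg (fun z : S => ((z.1 : N) : G)) h4
      simpa using this
    have h6 : (s.1 : G) = 1 := by
      have h7 : (s.1 : G) ^ 13 = (s.1 : G) := by
        have : (13 : ℕ) = 4 * 3 + 1 := by norm_num
        rw [this, pow_succ, pow_mul, h5, one_pow, one_mul]
      rw [← h7, h3]
    apply Subtype.ext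
    apply Subtype.ext
    exact h6
  haveI hSc : IsCyclic S := isCyclic_of_injective φ hφ
  -- its image is a Sylow subgroup of `G`
  let T : Subgroup G := S.map N.subtype
  have hT : Nat.card T = 4 := (Subgroup.card_map_of_injective N.subtype_injective).trans (by rw [hS]; norm_num)
  have hTS : T ≃* S := (S.equivMapOfInjective N.subtype N.subtype_injective).symm
  have hcard2 : Nat.card G = 2 ^ 2 * 1365 := by rw [h]; norm_num
  let T' : Sylow 2 G := Sylow.ofCard T (by
    rw [hcard2, factorization_of_card Nat.prime_two (by norm_num), hT]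
    norm_num)
  have hT'c : IsCyclic T' := isCyclic_of_surjective hTS.symm.toMonoidHom hTS.symm.surjective
  have hT'card : Nat.card T' = 4 := hT
  obtain ⟨d, hd⟩ : Nat.card T' ∣ Nat.card (normalizer ((T' : Subgroup G) : Set G)) := by
    apply Subgroup.card_dvd_of_le
    exact Subgroup.le_normalizer
  refine false_of_cyclic_sylow (p := 2) (by rw [h]; norm_num) (not_isPGroup_of_noncomm hnc 2) T' hT'c d hd ?_
  simp

theorem no_4620 [Finite G] [IsSimpleGroup G] (hnc : ¬ IsMulCommutative G) (h : Nat.card G = 4620) : False := by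
  classical
  haveI := Fintype.ofFinite G
  haveI hp11 : Fact (Nat.Prime 11) := ⟨by norm_num⟩
  haveI hp7 : Fact (Nat.Prime 7) := ⟨by norm_num⟩
  haveI hp5 : Fact (Nat.Prime 5) := ⟨by norm_num⟩
  obtain ⟨-, _, _, n₁₁, -, -, -, -, hn₁₁, -, hr₁₁⟩ := setup_filter (p := 11) (N := 420) (by rw [h]) (by norm_num) (by norm_num)
    (by norm_num) (fun _ n _ => n = 210) (by decide +kernel)
  obtain ⟨-, _, _, n₇, -, -, -, -, hn₇, -, hr₇⟩ := setup_filter (p := 7) (N := 660) (by rw [h]) (by norm_num) (by norm_num)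
    (by norm_num) (fun _ n _ => n = 330) (by decide +kernel)
  obtain ⟨P, _, c₅, n₅, hP, -, -, hCc, hn₅, -, hr₅⟩ := setup_filter (p := 5) (N := 924) (by rw [h]) (by norm_num) (by norm_num)
    (by norm_num) (fun _ n c => (n = 66 ∧ c = 7) ∨ n = 231) (by decide +kernel)
  subst hr₁₁ hr₇
  have hsyl : ∀ (p N : ℕ) [Fact p.Prime], Nat.card G = p ^ 1 * N → ¬ p ∣ N → ∀ Q : Sylow p G, Nat.card (Q : Subgroup G) = p := by
    intro p N _ h1 h2 Q
    have := sylow_card_of_eq Q h1 h2
    simpa using this
  have hc11 := card_orderOf_eq_prime (G := G) (p := 11) (hsyl 11 420 (by rw [h]; norm_num) (by norm_num))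
  have hc7 := card_orderOf_eq_prime (G := G) (p := 7) (hsyl 7 660 (by rw [h]; norm_num) (by norm_num))
  have hc5 := card_orderOf_eq_prime (G := G) (p := 5) (hsyl 5 924 (by rw [h]; norm_num) (by norm_num))
  rcases hr₅ with ⟨rfl, rfl⟩ | rfl
  · -- an element of order 35
    have hqd : 7 ∣ Nat.card (centralizer ((P : Subgroup G) : Set G)) := by
      rw [hCc]
      norm_num
    obtain ⟨y, hy⟩ := exists_prime_orderOf_dvd_card' 7 hqd
    have hPd : 5 ∣ Nat.card (P : Subgroup G) := by rw [hP]
    obtain ⟨x, hx⟩ := exists_prime_orderOf_dvd_card' 5 hPd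
    rw [← Subgroup.orderOf_coe] at hx hy
    have hcomm : (x : G) * y = y * x := Subgroup.mem_centralizer_iff.mp y.2 (x : G) x.2
    have hQ : IsPGroup 7 (zpowers ((y : G))) := IsPGroup.of_card (n := 1) (by rw [Nat.card_zpowers, hy]; norm_num)
    obtain ⟨S, hS⟩ := hQ.exists_le_sylow
    have hSc := hsyl 7 660 (by rw [h]; norm_num) (by norm_num) S
    have hSz : (zpowers (y : G)) = (S : Subgroup G) := Subgroup.eq_of_le_of_card_ge hS (by rw [hSc, Nat.card_zpowers, hy])
    have hxN : (x : G) ∈ normalizer ((S : Subgroup G) : Set G) := by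
      apply Subgroup.centralizer_le_normalizer
      rw [Subgroup.mem_centralizer_iff]
      intro s hs
      have hs' : s ∈ (S : Subgroup G) := hs
      rw [← hSz, Subgroup.mem_zpowers_iff] at hs'
      obtain ⟨k, rfl⟩ := hs'
      have hcc : Commute (y : G) (x : G) := hcomm.symm
      exact (hcc.zpow_left k).eq
    have hidx := S.card_eq_index_normalizer
    rw [hn₇] at hidx
    have h1 := Subgroup.card_mul_index (normalizer ((S : Subgroup G) : Set G))
    have h2 : (normalizer ((S : Subgroup G) : Set G)).index = 330 := hidx.symm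
    rw [h2, h] at h1
    have h3 : Nat.card (normalizer ((S : Subgroup G) : Set G)) = 14 := by omega
    have h4 := Subgroup.orderOf_dvd_natCard (normalizer ((S : Subgroup G) : Set G)) hxN
    rw [hx, h3] at h4
    omega
  · have hs := sum_card_orderOf_le (G := G) ({11, 7, 5} : Finset ℕ)
    rw [Finset.sum_insert (by decide), Finset.sum_insert (by decide), Finset.sum_singleton, hc11, hc7, hc5, hn₁₁, hn₇, hn₅, h] at hs
    omega

end Cfsg.Agent.Lib.R6232
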