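import Mathlib
import Cfsg.Agent.S0219
import Cfsg.Agent.Lib.SmallSimple.Sylow

/-! Unique subgroups of order a power of five in small groups. -/

set_option autoImplicit false
set_option linter.unusedSectionVars false
set_option linter.unusedVariables false

namespace Cfsg.Agent.Lib.R6232

open Subgroup

universe u

/-- Few Sylow subgroups by congruence. -/
theorem uniq_gen {X : Type*} [Group X] [Finite X] {a w : ℕ} (hcard : Nat.card X = 5 ^ a * w) (h5 : ¬ 5 ∣ w)
    (hw : ∀ d ∈ Nat.divisors w, d % 5 = 1 → d = 1) (A B : Subgroup X) (hA : Nat.card A = 5 ^ a)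
    (hB : Nat.card B = 5 ^ a) : A = B := by
  haveI hp : Fact (Nat.Prime 5) := ⟨by norm_num⟩
  have hw0 : w ≠ 0 := by
    rintro rfl
    exact h5 (dvd_zero 5)
  have hpA : IsPGroup 5 A := IsPGroup.of_card hA
  have hpB : IsPGroup 5 B := IsPGroup.of_card hB
  obtain ⟨S, hS⟩ := hpA.exists_le_sylow
  obtain ⟨S', hS'⟩ := hpB.exists_le_sylow
  have hSc := Cfsg.Agent.Lib.SmallSimple.sylow_card_of_eq S hcard h5
  have hSc' := Cfsg.Agent.Lib.SmallSimple.sylow_card_of_eq S' hcard h5
  have hi := Cfsg.Agent.Lib.SmallSimple.sylow_index_of_eq S hcard h5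
  have hd := S.card_dvd_index
  have hm : Nat.card (Sylow 5 X) ≡ 1 [MOD 5] := card_sylow_modEq_one 5 X
  rw [hi] at hd
  have h1 : Nat.card (Sylow 5 X) = 1 := by
    apply hw _ (Nat.mem_divisors.mpr ⟨hd, hw0⟩)
    exact hm
  haveI : Subsingleton (Sylow 5 X) := (Nat.card_eq_one_iff_unique.mp h1).1
  have hSS : S = S' := Subsingleton.elim _ _
  subst hSS
  have h2 : A = S := Subgroup.eq_of_le_of_card_ge hS (by rw [hSc, hA])
  have h3 : B = S := Subgroup.eq_of_le_of_card_ge hS' (by rw [hSc, hB])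
  rw [h2, h3]

/-- Subgroups of odd order lie in a subgroup of index two. -/
theorem le_of_index_two {X : Type*} [Group X] [Finite X] {H A : Subgroup X} (hH : H.index = 2) (hA : ¬ 2 ∣ Nat.card A) :
    A ≤ H := by
  intro a ha
  have h1 : a ^ Nat.card A = 1 := by
    have := pow_card_eq_one' (x := (⟨a, ha⟩ : A))
    exact congrArg Subtype.val this
  obtain ⟨k, hk⟩ : ∃ k, Nat.card A = 2 * k + 1 := ⟨Nat.card A / 2, by omega⟩
  have h2 : a = (a ^ 2) ^ (k + 1) := by
    rw [← pow_mul]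
    have h3 : 2 * (k + 1) = Nat.card A + 1 := by omega
    rw [h3, pow_succ, h1, one_mul]
  rw [h2]
  exact pow_mem (Subgroup.sq_mem_of_index_two hH a) _

/-- Transfer of uniqueness from a subgroup. -/
theorem uniq_in {X : Type*} [Group X] [Finite X] (K : Subgroup X) {c : ℕ}
    (U : ∀ A B : Subgroup K, Nat.card A = c → Nat.card B = c → A = B) {A B : Subgroup X} (hA : A ≤ K) (hB : B ≤ K)
    (hcA : Nat.card A = c) (hcB : Nat.card B = c) : A = B := by
  have h1 : Nat.card (A.subgroupOf K) = c := by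
    rw [Nat.card_congr (Subgroup.subgroupOfEquivOfLe hA).toEquiv, hcA]
  have h2 : Nat.card (B.subgroupOf K) = c := by
    rw [Nat.card_congr (Subgroup.subgroupOfEquivOfLe hB).toEquiv, hcB]
  have h3 := U _ _ h1 h2
  rw [Subgroup.subgroupOf_inj, inf_eq_left.mpr hA, inf_eq_left.mpr hB] at h3
  exact h3

/-- The case of twice an odd number. -/
theorem uniq_gen2 {X : Type*} [Group X] [Finite X] {a w : ℕ} (hcard : Nat.card X = 5 ^ a * (2 * w)) (h5 : ¬ 5 ∣ w)
    (h2 : ¬ 2 ∣ w) (hw : ∀ d ∈ Nat.divisors w, d % 5 = 1 → d = 1) (A B : Subgroup X) (hA : Nat.card A = 5 ^ a)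
    (hB : Nat.card B = 5 ^ a) : A = B := by
  haveI hp2 : Fact (Nat.Prime 2) := ⟨Nat.prime_two⟩
  have hm : ¬ 2 ∣ 5 ^ a * w := by
    intro h
    rcases (Nat.Prime.dvd_mul Nat.prime_two).mp h with h | h
    · have := Nat.Prime.dvd_of_dvd_pow Nat.prime_two h
      omega
    · exact h2 h
  have hcard' : Nat.card X = 2 ^ 1 * (5 ^ a * w) := by
    rw [hcard]
    ring
  have heven : Even (Nat.card X) := by
    rw [hcard']
    exact ⟨5 ^ a * w, by ring⟩
  obtain ⟨T⟩ : Nonempty (Sylow 2 X) := inferInstance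
  have hcyc : IsCyclic (T : Subgroup X) := Cfsg.Agent.Lib.SmallSimple.isCyclic_sylow_of_eq T hcard' hm
  obtain ⟨H, hH⟩ := Cfsg.Agent.S0219.result heven T hcyc
  have hH2 := Subgroup.card_mul_index H
  rw [hH, hcard] at hH2
  have hcH : Nat.card H = 5 ^ a * w := by
    have : Nat.card H * 2 = (5 ^ a * w) * 2 := by rw [hH2]; ring
    exact Nat.eq_of_mul_eq_mul_right (by norm_num) this
  have hodd : ∀ n : ℕ, ¬ 2 ∣ 5 ^ n := by
    intro n h
    have := Nat.Prime.dvd_of_dvd_pow Nat.prime_two h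
    omega
  have hAH : A ≤ H := le_of_index_two hH (by rw [hA]; exact hodd a)
  have hBH : B ≤ H := le_of_index_two hH (by rw [hB]; exact hodd a)
  exact uniq_in H (c := 5 ^ a) (fun A' B' hA' hB' => uniq_gen hcH h5 hw A' B' hA' hB') hAH hBH hA hB

/-- Subgroups of order 25. -/
theorem uniq25 {X : Type*} [Group X] [Finite X] {t : ℕ} (hcard : Nat.card X = 25 * t) (ht : t ∈ [1, 2, 3, 4, 6, 8, 9, 18])
    (A B : Subgroup X) (hA : Nat.card A = 25) (hB : Nat.card B = 25) : A = B := by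
  have h : ∀ w ∈ [1, 2, 3, 4, 8, 9], ¬ 5 ∣ w ∧ ∀ d ∈ Nat.divisors w, d % 5 = 1 → d = 1 := by decide +kernel
  have h' : ∀ w ∈ [3, 9], ¬ 5 ∣ w ∧ ¬ 2 ∣ w ∧ ∀ d ∈ Nat.divisors w, d % 5 = 1 → d = 1 := by decide +kernel
  have hA' : Nat.card A = 5 ^ 2 := by rw [hA]; norm_num
  have hB' : Nat.card B = 5 ^ 2 := by rw [hB]; norm_num
  simp only [List.mem_cons, List.not_mem_nil, or_false] at ht
  rcases ht with rfl | rfl | rfl | rfl | rfl | rfl | rfl | rfl
  · exact uniq_gen (a := 2) (w := 1) (by rw [hcard]; norm_num) (h 1 (by simp)).1 (h 1 (by simp)).2 A B hA' hB'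
  · exact uniq_gen (a := 2) (w := 2) (by rw [hcard]; norm_num) (h 2 (by simp)).1 (h 2 (by simp)).2 A B hA' hB'
  · exact uniq_gen (a := 2) (w := 3) (by rw [hcard]; norm_num) (h 3 (by simp)).1 (h 3 (by simp)).2 A B hA' hB'
  · exact uniq_gen (a := 2) (w := 4) (by rw [hcard]; norm_num) (h 4 (by simp)).1 (h 4 (by simp)).2 A B hA' hB'
  · exact uniq_gen2 (a := 2) (w := 3) (by rw [hcard]; norm_num) (h' 3 (by simp)).1 (h' 3 (by simp)).2.1 (h' 3 (by simp)).2.2 A B hA' hB'
  · exact uniq_gen (a := 2) (w := 8) (by rw [hcard]; norm_num) (h 8 (by simp)).1 (h 8 (by simp)).2 A B hA' hB'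
  · exact uniq_gen (a := 2) (w := 9) (by rw [hcard]; norm_num) (h 9 (by simp)).1 (h 9 (by simp)).2 A B hA' hB'
  · exact uniq_gen2 (a := 2) (w := 9) (by rw [hcard]; norm_num) (h' 9 (by simp)).1 (h' 9 (by simp)).2.1 (h' 9 (by simp)).2.2 A B hA' hB'

/-- Subgroups of order 5. -/
theorem uniq5 {X : Type*} [Group X] [Finite X] {t : ℕ} (hcard : Nat.card X = 5 * t) (ht : t ∈ [1, 2, 3, 6, 9, 18])
    (A B : Subgroup X) (hA : Nat.card A = 5) (hB : Nat.card B = 5) : A = B := by
  have h : ∀ w ∈ [1, 2, 3, 9], ¬ 5 ∣ w ∧ ∀ d ∈ Nat.divisors w, d % 5 = 1 → d = 1 := by decide +kernel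
  have h' : ∀ w ∈ [3, 9], ¬ 5 ∣ w ∧ ¬ 2 ∣ w ∧ ∀ d ∈ Nat.divisors w, d % 5 = 1 → d = 1 := by decide +kernel
  have hA' : Nat.card A = 5 ^ 1 := by rw [hA]; norm_num
  have hB' : Nat.card B = 5 ^ 1 := by rw [hB]; norm_num
  simp only [List.mem_cons, List.not_mem_nil, or_false] at ht
  rcases ht with rfl | rfl | rfl | rfl | rfl | rfl
  · exact uniq_gen (a := 1) (w := 1) (by rw [hcard]; norm_num) (h 1 (by simp)).1 (h 1 (by simp)).2 A B hA' hB'
  · exact uniq_gen (a := 1) (w := 2) (by rw [hcard]; norm_num) (h 2 (by simp)).1 (h 2 (by simp)).2 A B hA' hB'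
  · exact uniq_gen (a := 1) (w := 3) (by rw [hcard]; norm_num) (h 3 (by simp)).1 (h 3 (by simp)).2 A B hA' hB'
  · exact uniq_gen2 (a := 1) (w := 3) (by rw [hcard]; norm_num) (h' 3 (by simp)).1 (h' 3 (by simp)).2.1 (h' 3 (by simp)).2.2 A B hA' hB'
  · exact uniq_gen (a := 1) (w := 9) (by rw [hcard]; norm_num) (h 9 (by simp)).1 (h 9 (by simp)).2 A B hA' hB'
  · exact uniq_gen2 (a := 1) (w := 9) (by rw [hcard]; norm_num) (h' 9 (by simp)).1 (h' 9 (by simp)).2.1 (h' 9 (by simp)).2.2 A B hA' hB'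

/-- A central subgroup of order four does not disturb uniqueness of subgroups of order 5. -/
theorem uniq_central {C : Type*} [Group C] [Finite C] (V : Subgroup C) (hV : V ≤ center C) (hV4 : Nat.card V = 4) {w : ℕ}
    (hc : Nat.card C = 4 * (5 * w)) (hw : w ∈ [1, 2, 3, 6, 9, 18]) (A B : Subgroup C) (hA : Nat.card A = 5)
    (hB : Nat.card B = 5) : A = B := by
  haveI hnV : V.Normal := by
    constructor
    intro n hn g
    have h1 := (Subgroup.mem_center_iff.mp (hV hn)) g
    rw [h1]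
    simpa using hn
  let f := QuotientGroup.mk' V
  have hQ : Nat.card (C ⧸ V) = 5 * w := by
    have h1 := Subgroup.card_mul_index V
    rw [hV4, hc] at h1
    have h2 : V.index = Nat.card (C ⧸ V) := rfl
    rw [← h2]
    omega
  have hcard : ∀ A : Subgroup C, Nat.card A = 5 → Nat.card (A.map f) = 5 := by
    intro A hA
    have h1 := Subgroup.card_map_dvd (H := A) f
    rw [hA] at h1
    rcases (Nat.dvd_prime (by norm_num : Nat.Prime 5)).mp h1 with h2 | h2
    · exfalso
      have h3 : A.map f = ⊥ := Subgroup.card_eq_one.mp h2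
      have h4 : A ≤ V := by
        intro a ha
        have h5 : f a ∈ A.map f := Subgroup.mem_map_of_mem f ha
        rw [h3] at h5
        have h6 : f a = 1 := Subgroup.mem_bot.mp h5
        exact (QuotientGroup.eq_one_iff a).mp h6
      have h7 := Subgroup.card_dvd_of_le h4
      rw [hA, hV4] at h7
      omega
    · exact h2
  have hmain : A.map f = B.map f := uniq5 hQ hw _ _ (hcard A hA) (hcard B hB)
  have hle : A ≤ B := by
    intro a ha
    have h1 : f a ∈ B.map f := by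
      rw [← hmain]
      exact Subgroup.mem_map_of_mem f ha
    obtain ⟨b, hb, hba⟩ := h1
    have h2 : b⁻¹ * a ∈ V := by
      apply QuotientGroup.eq.mp
      exact hba
    set v := b⁻¹ * a with hv
    have hav : a = b * v := by rw [hv]; group
    have hcomm : Commute b v := by
      have h3 := (Subgroup.mem_center_iff.mp (hV h2)) b
      exact h3
    have ha5 : a ^ 5 = 1 := by
      have := pow_card_eq_one' (x := (⟨a, ha⟩ : A))
      rw [hA] at this
      exact congrArg Subtype.val this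
    have hb5 : b ^ 5 = 1 := by
      have := pow_card_eq_one' (x := (⟨b, hb⟩ : B))
      rw [hB] at this
      exact congrArg Subtype.val this
    have hv4 : v ^ 4 = 1 := by
      have := pow_card_eq_one' (x := (⟨v, h2⟩ : V))
      rw [hV4] at this
      exact congrArg Subtype.val this
    have hv1 : v = 1 := by
      have h4 : (b * v) ^ 5 = 1 := by rw [← hav, ha5]
      rw [hcomm.mul_pow, hb5, one_mul] at h4
      have h5 : v ^ 5 = v ^ 4 * v := pow_succ v 4
      rw [hv4, one_mul] at h5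
      rw [← h5, h4]
    rw [hav, hv1, mul_one]
    exact hb
  exact Subgroup.eq_of_le_of_card_ge hle (by rw [hA, hB])

end Cfsg.Agent.Lib.R6232
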