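import Mathlib
import Cfsg.Agent.Lib.R6232.Special
import Cfsg.Agent.Lib.R6232.Uniq

/-! There is no simple group of order 5400. -/

set_option autoImplicit false
set_option linter.unusedSectionVars false
set_option linter.unusedVariables false

namespace Cfsg.Agent.Lib.R6232

open Cfsg Cfsg.Agent.Lib.Small Cfsg.Agent.Lib.SmallSimple Subgroup

universe u

variable {G : Type u} [Group G]

theorem no_5400 [Finite G] [IsSimpleGroup G] (hnc : ¬ IsMulCommutative G) (h : Nat.card G = 5400) : False := by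
  classical
  haveI hp5 : Fact (Nat.Prime 5) := ⟨by norm_num⟩
  haveI hp2 : Fact (Nat.Prime 2) := ⟨Nat.prime_two⟩
  have hcard : Nat.card G = 5 ^ 2 * 216 := by rw [h]; norm_num
  have h216 : ¬ 5 ∣ 216 := by norm_num
  obtain ⟨h3, h4, h5, h6⟩ := sylow_package hcard (by norm_num) h216 (not_isPGroup_of_noncomm hnc 5) hnc
  have key : ∀ n ∈ Nat.divisors 216, n % 5 = 1 → 1 < n → (50 ≤ n ∨ 2 * (5 ^ 2 * 216) ∣ n.factorial) → n = 36 ∨ n = 216 := by
    decide +kernel
  have hn := key _ (Nat.mem_divisors.mpr ⟨h4, by norm_num⟩) h3 h5 (by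
    rw [← hcard]
    by_cases h50 : 50 ≤ Nat.card (Sylow 5 G)
    · exact Or.inl h50
    · exact Or.inr h6)
  rcases hn with h36 | h216'
  swap
  · exact false_selfnorm hnc hcard h216 h216'
  have hmod : ¬ Nat.card (Sylow 5 G) ≡ 1 [MOD 5 ^ 2] := by
    rw [h36]
    decide
  obtain ⟨P, R, hne, hle⟩ := exists_sylow_index_le (k := 2) hmod
  have hS : ∀ Q : Sylow 5 G, Nat.card (Q : Subgroup G) = 25 := by
    intro Q
    have := sylow_card_of_eq Q hcard h216
    simpa using this
  have hab : ∀ Q : Sylow 5 G, IsMulCommutative (Q : Subgroup G) := fun Q =>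
    IsPGroup.isMulCommutative_of_card_eq_prime_sq (p := 5) (by rw [hS Q]; norm_num)
  have hcomm : ∀ Q : Sylow 5 G, ∀ a ∈ (Q : Subgroup G), ∀ b ∈ (Q : Subgroup G), a * b = b * a := by
    intro Q a ha b hb
    have := (hab Q).is_comm.comm (⟨a, ha⟩ : (Q : Subgroup G)) ⟨b, hb⟩
    simpa [Subtype.ext_iff] using this
  -- the intersection has order 5
  have hi1 : ((R : Subgroup G).subgroupOf (P : Subgroup G)).index ≠ 1 := by
    intro hi
    apply hne
    have h1 : (R : Subgroup G).subgroupOf (P : Subgroup G) = ⊤ := Subgroup.index_eq_one.mp hi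
    have h2 : (P : Subgroup G) ≤ R := Subgroup.subgroupOf_eq_top.mp h1
    apply Sylow.ext
    exact Subgroup.eq_of_le_of_card_ge h2 (by rw [hS P, hS R])
  have hcm := Subgroup.card_mul_index ((R : Subgroup G).subgroupOf (P : Subgroup G))
  rw [hS P] at hcm
  have hcD : Nat.card ((R : Subgroup G).subgroupOf (P : Subgroup G)) = 5 := by
    set i := ((R : Subgroup G).subgroupOf (P : Subgroup G)).index
    set c := Nat.card ((R : Subgroup G).subgroupOf (P : Subgroup G))
    have hi5 : i ≤ 5 := by simpa using hle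
    have hi0 : i ≠ 0 := by
      intro h0
      rw [h0] at hcm
      omega
    interval_cases i <;> omega
  let D : Subgroup G := ((R : Subgroup G).subgroupOf (P : Subgroup G)).map (P : Subgroup G).subtype
  have hD : Nat.card D = 5 := (Subgroup.card_map_of_injective (P : Subgroup G).subtype_injective).trans hcD
  have hDP : D ≤ P := by
    rintro _ ⟨x, -, rfl⟩
    exact x.2
  have hDR : D ≤ R := by
    rintro _ ⟨x, hx, rfl⟩
    exact hx
  -- subgroups of index at least ten
  have hIdx : ∀ K : Subgroup G, K ≠ ⊤ → Nat.card K ≤ 540 := by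
    intro K hK
    have h1 := two_mul_card_dvd_factorial hnc K hK
    rw [h] at h1
    have h2 : ∀ i ∈ List.range 10, ¬ 2 * 5400 ∣ i.factorial := by decide +kernel
    have h3 : 10 ≤ K.index := by
      by_contra hlt
      exact h2 _ (List.mem_range.mpr (by omega)) h1
    have h4 := Subgroup.card_mul_index K
    rw [h] at h4
    nlinarith
  have hntop : ∀ K : Subgroup G, 1 < Nat.card K → Nat.card K < 5400 → normalizer (K : Set G) ≠ ⊤ := by
    intro K h1 h2 htop
    have hK : K.Normal := Subgroup.normalizer_eq_top_iff.mp htop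
    rcases IsSimpleGroup.eq_bot_or_eq_top_of_normal K hK with hb | ht
    · rw [hb] at h1
      simp at h1
    · rw [ht, Subgroup.card_top, h] at h2
      omega
  -- uniqueness
  have huniq : ∀ K : Subgroup G, (P : Subgroup G) ≤ K → (R : Subgroup G) ≤ K →
      Nat.card K ∈ [25, 50, 75, 100, 150, 200, 225, 450] → False := by
    intro K h1 h2 h7
    apply hne
    apply Sylow.ext
    have h8 : ∃ t ∈ [1, 2, 3, 4, 6, 8, 9, 18], Nat.card K = 25 * t := by
      simp only [List.mem_cons, List.not_mem_nil, or_false] at h7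
      rcases h7 with h7 | h7 | h7 | h7 | h7 | h7 | h7 | h7
      · exact ⟨1, by simp, by rw [h7]⟩
      · exact ⟨2, by simp, by rw [h7]⟩
      · exact ⟨3, by simp, by rw [h7]⟩
      · exact ⟨4, by simp, by rw [h7]⟩
      · exact ⟨6, by simp, by rw [h7]⟩
      · exact ⟨8, by simp, by rw [h7]⟩
      · exact ⟨9, by simp, by rw [h7]⟩
      · exact ⟨18, by simp, by rw [h7]⟩
    obtain ⟨t, ht, hK⟩ := h8
    exact uniq_in K (c := 25) (fun A B hA hB => uniq25 hK ht A B hA hB) h1 h2 (hS P) (hS R)
  set C := centralizer (D : Set G) with hCdef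
  set M := normalizer (D : Set G) with hMdef
  have hCM : C ≤ M := Subgroup.centralizer_le_normalizer _
  have hPC : ∀ Q : Sylow 5 G, D ≤ Q → (Q : Subgroup G) ≤ C := by
    intro Q hQ a ha
    rw [hCdef, Subgroup.mem_centralizer_iff]
    intro b hb
    exact hcomm Q b (hQ hb) a ha
  have hPCc := hPC P hDP
  have hRCc := hPC R hDR
  have hMne : M ≠ ⊤ := hntop D (by rw [hD]; norm_num) (by rw [hD]; norm_num)
  have hMdvd : Nat.card M ∣ 5400 := by
    rw [← h]
    exact Subgroup.card_subgroup_dvd_card M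
  have hM25 : 25 ∣ Nat.card M := by
    rw [← hS P]
    exact Subgroup.card_dvd_of_le (hPCc.trans hCM)
  have hM1 : ∀ m ∈ Nat.divisors 5400, 25 ∣ m → m ≤ 540 → m = 300 ∨ m ∈ [25, 50, 75, 100, 150, 200, 225, 450] := by
    decide +kernel
  have hMc : Nat.card M = 300 := by
    rcases hM1 _ (Nat.mem_divisors.mpr ⟨hMdvd, by norm_num⟩) hM25 (hIdx M hMne) with h7 | h7
    · exact h7
    · exact (huniq M (hPCc.trans hCM) (hRCc.trans hCM) h7).elim
  have hCdvd : Nat.card C ∣ 300 := by
    rw [← hMc]
    exact Subgroup.card_dvd_of_le hCM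
  have hC25 : 25 ∣ Nat.card C := by
    rw [← hS P]
    exact Subgroup.card_dvd_of_le hPCc
  have hC1 : ∀ m ∈ Nat.divisors 300, 25 ∣ m → m = 300 ∨ m ∈ [25, 50, 75, 100, 150, 200, 225, 450] := by
    decide +kernel
  have hCc : Nat.card C = 300 := by
    rcases hC1 _ (Nat.mem_divisors.mpr ⟨hCdvd, by norm_num⟩) hC25 with h7 | h7
    · exact h7
    · exact (huniq C hPCc hRCc h7).elim
  have hCeq : C = M := Subgroup.eq_of_le_of_card_ge hCM (by rw [hCc, hMc])
  -- a subgroup of order 4 of `M`
  obtain ⟨V', hV'⟩ := Sylow.exists_subgroup_card_pow_prime (G := M) 2 (n := 2) (by rw [hMc]; norm_num)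
  let V : Subgroup G := V'.map M.subtype
  have hV : Nat.card V = 4 := (Subgroup.card_map_of_injective M.subtype_injective).trans (by rw [hV']; norm_num)
  have hVM : V ≤ M := by
    rintro _ ⟨x, -, rfl⟩
    exact x.2
  have hVC : V ≤ C := by
    rw [hCeq]
    exact hVM
  have hVp : IsPGroup 2 V := IsPGroup.of_card (n := 2) (by rw [hV]; norm_num)
  obtain ⟨T, hT⟩ := hVp.exists_le_sylow
  have hcard2 : Nat.card G = 2 ^ 3 * 675 := by rw [h]; norm_num
  have hTc : Nat.card (T : Subgroup G) = 8 := by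
    have := sylow_card_of_eq T hcard2 (by norm_num)
    simpa using this
  have hVT : (V.subgroupOf (T : Subgroup G)).index = 2 := by
    have h1 := Subgroup.card_mul_index (V.subgroupOf (T : Subgroup G))
    rw [Nat.card_congr (Subgroup.subgroupOfEquivOfLe hT).toEquiv, hV, hTc] at h1
    omega
  haveI hVn : (V.subgroupOf (T : Subgroup G)).Normal := Subgroup.normal_of_index_eq_two hVT
  set L := normalizer (V : Set G) with hLdef
  have hTL : (T : Subgroup G) ≤ L := Subgroup.le_normalizer_of_normal_subgroupOf hT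
  set C₀ := centralizer (V : Set G) with hC₀def
  have hC₀L : C₀ ≤ L := Subgroup.centralizer_le_normalizer _
  have hDC₀ : D ≤ C₀ := by
    intro d hd
    rw [hC₀def, Subgroup.mem_centralizer_iff]
    intro v hv
    have h1 := hVC hv
    rw [hCdef, Subgroup.mem_centralizer_iff] at h1
    exact (h1 d hd).symm
  have hVab : IsMulCommutative V := IsPGroup.isMulCommutative_of_card_eq_prime_sq (p := 2) (by rw [hV]; norm_num)
  have hVC₀ : V ≤ C₀ := by
    intro a ha
    rw [hC₀def, Subgroup.mem_centralizer_iff]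
    intro b hb
    have := hVab.is_comm.comm (⟨b, hb⟩ : V) ⟨a, ha⟩
    simpa [Subtype.ext_iff] using this
  have hLne : L ≠ ⊤ := hntop V (by rw [hV]; norm_num) (by rw [hV]; norm_num)
  have hLdvd : Nat.card L ∣ 5400 := by
    rw [← h]
    exact Subgroup.card_subgroup_dvd_card L
  have hL8 : 8 ∣ Nat.card L := by
    rw [← hTc]
    exact Subgroup.card_dvd_of_le hTL
  have hL5 : 5 ∣ Nat.card L := by
    rw [← hD]
    exact Subgroup.card_dvd_of_le (hDC₀.trans hC₀L)
  have hL1 : ∀ m ∈ Nat.divisors 5400, 8 ∣ m → 5 ∣ m → m ≤ 540 → m = 200 ∨ m ∈ [40, 120, 360] := by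
    decide +kernel
  rcases hL1 _ (Nat.mem_divisors.mpr ⟨hLdvd, by norm_num⟩) hL8 hL5 (hIdx L hLne) with hL200 | hLm
  · -- a normal Sylow `5`-subgroup of `L`
    obtain ⟨Q', hQ'⟩ := Sylow.exists_subgroup_card_pow_prime (G := L) 5 (n := 2) (by rw [hL200]; norm_num)
    let Q : Subgroup G := Q'.map L.subtype
    have hQ : Nat.card Q = 25 := (Subgroup.card_map_of_injective L.subtype_injective).trans (by rw [hQ']; norm_num)
    have hQL : Q ≤ L := by
      rintro _ ⟨x, -, rfl⟩
      exact x.2
    have hQn : L ≤ normalizer (Q : Set G) := by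
      intro g hg
      rw [Subgroup.mem_normalizer_iff_map_conj_eq]
      apply uniq_in L (c := 25) (fun A B hA hB => uniq25 (t := 8) (by rw [hL200]) (by simp) A B hA hB)
      · rintro _ ⟨x, hx, rfl⟩
        exact mul_mem (mul_mem hg (hQL hx)) (inv_mem hg)
      · exact hQL
      · rw [← hQ]
        exact Subgroup.card_map_of_injective (MulAut.conj g).injective
      · exact hQ
    have hQp : IsPGroup 5 Q := IsPGroup.of_card (n := 2) (by rw [hQ]; norm_num)
    obtain ⟨S, hSQ⟩ := hQp.exists_le_sylow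
    have hSe : Q = (S : Subgroup G) := Subgroup.eq_of_le_of_card_ge hSQ (by rw [hS S, hQ])
    have hidx := S.card_eq_index_normalizer
    rw [h36] at hidx
    have h1 := Subgroup.card_mul_index (normalizer ((S : Subgroup G) : Set G))
    have h2 : (normalizer ((S : Subgroup G) : Set G)).index = 36 := hidx.symm
    rw [h2, h] at h1
    have h7 : Nat.card (normalizer ((S : Subgroup G) : Set G)) = 150 := by omega
    have h8 : (T : Subgroup G) ≤ normalizer ((S : Subgroup G) : Set G) := by
      rw [← hSe]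
      exact hTL.trans hQn
    have h9 := Subgroup.card_dvd_of_le h8
    rw [hTc, h7] at h9
    omega
  · -- `D` is normal in `L`
    have hC₀dvd : Nat.card C₀ ∣ Nat.card L := Subgroup.card_dvd_of_le hC₀L
    have hC₀4 : 4 ∣ Nat.card C₀ := by
      rw [← hV]
      exact Subgroup.card_dvd_of_le hVC₀
    have hC₀5 : 5 ∣ Nat.card C₀ := by
      rw [← hD]
      exact Subgroup.card_dvd_of_le hDC₀
    have hC₀1 : ∀ l ∈ [40, 120, 360], ∀ c ∈ Nat.divisors l, 4 ∣ c → 5 ∣ c → ∃ w ∈ [1, 2, 3, 6, 9, 18], c = 4 * (5 * w) := by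
      decide +kernel
    obtain ⟨w, hw, hC₀c⟩ := hC₀1 _ hLm _ (Nat.mem_divisors.mpr ⟨hC₀dvd, by
      simp only [List.mem_cons, List.not_mem_nil, or_false] at hLm
      omega⟩) hC₀4 hC₀5
    have hcent : V.subgroupOf C₀ ≤ center C₀ := by
      intro v hv
      rw [Subgroup.mem_center_iff]
      intro x
      have h1 := Subgroup.mem_centralizer_iff.mp x.2 (v : G) hv
      exact Subtype.ext h1.symm
    have hV4' : Nat.card (V.subgroupOf C₀) = 4 := by
      rw [Nat.card_congr (Subgroup.subgroupOfEquivOfLe hVC₀).toEquiv, hV]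
    have hLM : L ≤ M := by
      intro g hg
      rw [hMdef, Subgroup.mem_normalizer_iff_map_conj_eq]
      apply uniq_in C₀ (c := 5) (fun A B hA hB => uniq_central (V.subgroupOf C₀) hcent hV4' hC₀c hw A B hA hB)
      · rintro _ ⟨d, hd, rfl⟩
        rw [hC₀def, Subgroup.mem_centralizer_iff]
        intro v hv
        have hv' : g⁻¹ * v * g ∈ V := (Subgroup.mem_set_normalizer_iff''.mp hg v).mp hv
        have h1 : (g⁻¹ * v * g) * d = d * (g⁻¹ * v * g) :=
          Subgroup.mem_centralizer_iff.mp (hDC₀ hd) _ hv'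
        show v * (g * d * g⁻¹) = (g * d * g⁻¹) * v
        calc v * (g * d * g⁻¹) = g * ((g⁻¹ * v * g) * d) * g⁻¹ := by group
          _ = g * (d * (g⁻¹ * v * g)) * g⁻¹ := by rw [h1]
          _ = (g * d * g⁻¹) * v := by group
      · exact hDC₀
      · rw [← hD]
        exact Subgroup.card_map_of_injective (MulAut.conj g).injective
      · exact hD
    have h9 := Subgroup.card_dvd_of_le (hTL.trans hLM)
    rw [hTc, hMc] at h9
    omega

end Cfsg.Agent.Lib.R6232
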